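import Mathlib.GroupTheory.Coset.Card
import Mathlib.GroupTheory.Index
import Mathlib.GroupTheory.OrderOfElement
import Mathlib.Algebra.BigOperators.Group.Finset.Basic
import Mathlib.Algebra.Group.End
import Mathlib.Tactic

/-!
# Fixed points on average

If an abelian group of exponent a prime `ℓ` acts on an abelian `ℓ'`-group without fixed points and
`x` normalises it, then on average over the coset of `x` a fixed subgroup has order at most the
square root of the group's order.
-/

set_option autoImplicit false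
set_option linter.unusedSectionVars false
set_option linter.style.haveILetI false

namespace Cfsg.Agent.Lib.PrimClass

universe u

variable {V : Type u} [CommGroup V] [Finite V]

/-- The fixed points of an automorphism. -/
def fixSub (y : MulAut V) : Subgroup V where
  carrier := {v | y v = v}
  one_mem' := map_one y
  mul_mem' := fun {a b} ha hb => (map_mul y a b).trans (by rw [show y a = a from ha, show y b = b from hb])
  inv_mem' := fun {a} ha => (map_inv y a).trans (by rw [show y a = a from ha])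

theorem mem_fixSub {y : MulAut V} {v : V} : v ∈ fixSub y ↔ y v = v := Iff.rfl

section

variable {A : Subgroup (MulAut V)}

/-- The common fixed points of a subgroup of `A`. -/
def fixAll (B : Subgroup A) : Subgroup V := ⨅ b ∈ B, fixSub (b : MulAut V)

theorem mem_fixAll {B : Subgroup A} {v : V} : v ∈ fixAll B ↔ ∀ b ∈ B, (b : MulAut V) v = v := by
  simp [fixAll, Subgroup.mem_iInf, mem_fixSub]

/-- The product of the translates by a subgroup. -/
noncomputable def avg (B : Subgroup A) : V →* V :=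
  letI := Fintype.ofFinite B
  { toFun := fun v => ∏ b : B, ((b : A) : MulAut V) v
    map_one' := by simp
    map_mul' := fun v w => by simp only [map_mul, Finset.prod_mul_distrib] }

theorem avg_apply (B : Subgroup A) [Fintype B] (v : V) :
    avg B v = ∏ b : B, ((b : A) : MulAut V) v := by
  simp only [avg, MonoidHom.coe_mk, OneHom.coe_mk]
  congr 1
  ext
  simp

theorem avg_mem (B : Subgroup A) (v : V) : avg B v ∈ fixAll B := by
  classical
  letI := Fintype.ofFinite B
  refine mem_fixAll.2 fun c hc => ?_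
  rw [avg_apply, map_prod]
  refine Fintype.prod_equiv (Equiv.mulLeft ⟨c, hc⟩) _ _ fun b => ?_
  rfl

theorem avg_of_mem {B : Subgroup A} {w : V} (hw : w ∈ fixAll B) : avg B w = w ^ Nat.card B := by
  classical
  letI := Fintype.ofFinite B
  rw [avg_apply, Finset.prod_congr rfl fun (b : B) _ => mem_fixAll.1 hw (b : A) b.2, Finset.prod_const,
    Finset.card_univ, Nat.card_eq_fintype_card]

variable (hcomm : ∀ a b : A, a * b = b * a)

include hcomm in
theorem act_comm (a b : A) (v : V) :
    (a : MulAut V) ((b : MulAut V) v) = (b : MulAut V) ((a : MulAut V) v) :=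
  congrArg (fun c : A => (c : MulAut V) v) (hcomm a b)

include hcomm in
theorem avg_act (B : Subgroup A) (a : A) (v : V) :
    avg B ((a : MulAut V) v) = (a : MulAut V) (avg B v) := by
  classical
  letI := Fintype.ofFinite B
  rw [avg_apply, avg_apply, map_prod]
  exact Finset.prod_congr rfl fun b _ => act_comm hcomm b a v

variable {ℓ : ℕ} [hℓ : Fact ℓ.Prime] (hexp : ∀ a : A, a ^ ℓ = 1) (hcop : ¬ ℓ ∣ Nat.card V)
  (hfix : ∀ v : V, (∀ a : A, (a : MulAut V) v = v) → v = 1)

include hexp in
theorem card_isPow (B : Subgroup A) : ∃ k, Nat.card B = ℓ ^ k := by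
  haveI : Finite (MulAut V) := Finite.of_injective _ DFunLike.coe_injective
  exact IsPGroup.iff_card.1 fun b => ⟨1, Subtype.ext (by simpa using hexp b)⟩

include hcop in
theorem eq_one_of_pow {k : ℕ} {w : V} (h : w ^ ℓ ^ k = 1) : w = 1 := by
  rw [← orderOf_eq_one_iff]
  refine Nat.eq_one_of_dvd_coprimes
    ((hℓ.out.coprime_iff_not_dvd.2 hcop).pow_left k) (orderOf_dvd_of_pow_eq_one h)
    (orderOf_dvd_natCard w)

include hexp hcop in
theorem eq_one_of_avg {B : Subgroup A} {w : V} (hw : w ∈ fixAll B) (h : avg B w = 1) : w = 1 := by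
  obtain ⟨k, hk⟩ := card_isPow hexp B
  rw [avg_of_mem hw, hk] at h
  exact eq_one_of_pow hcop h

include hexp hcop hfix hcomm in
/-- The averages over subgroups of index `ℓ` separate the points. -/
theorem eq_one_of_avgs {v : V} (h : ∀ B : Subgroup A, B.index = ℓ → avg B v = 1) : v = 1 := by
  classical
  haveI : Finite (MulAut V) := Finite.of_injective _ DFunLike.coe_injective
  let Z : Subgroup V :=
    { carrier := {w | ∀ B : Subgroup A, B.index = ℓ → avg B w = 1}
      one_mem' := fun B _ => map_one _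
      mul_mem' := fun {a b} ha hb B hB => by rw [map_mul, ha B hB, hb B hB, one_mul]
      inv_mem' := fun {a} ha B hB => by rw [map_inv, ha B hB, inv_one] }
  have hZact : ∀ (a : A) (w : V), w ∈ Z → (a : MulAut V) w ∈ Z := fun a w hw B hB => by
    rw [avg_act hcomm, hw B hB, map_one]
  by_contra hv
  obtain ⟨C, ⟨w, hwZ, hwC, hw1⟩, hCmax⟩ := Set.Finite.exists_maximal
    (s := {C : Subgroup A | ∃ w ∈ Z, w ∈ fixAll C ∧ w ≠ 1}) (Set.toFinite _)
    ⟨⊥, v, h, mem_fixAll.2 fun b hb => by rw [Subgroup.mem_bot.1 hb]; rfl, hv⟩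
  let Φ : A → V → V := fun s u => ∏ j ∈ Finset.range ℓ, ((s ^ j : A) : MulAut V) u
  have hΦ : ∀ s ∉ C, Φ s w = 1 := by
    intro s hs
    by_contra hne
    refine hs ((hCmax (y := C ⊔ Subgroup.zpowers s) ⟨Φ s w, ?_, ?_, hne⟩ le_sup_left)
      (Subgroup.mem_sup_right (Subgroup.mem_zpowers s)))
    · exact prod_mem fun j _ => hZact _ w hwZ
    · refine mem_fixAll.2 fun b hb => ?_
      have key : C ⊔ Subgroup.zpowers s ≤
          (MulAction.stabilizer (MulAut V) (Φ s w)).comap A.subtype := by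
        refine sup_le (fun c hc => ?_) ?_
        · show (c : MulAut V) (Φ s w) = Φ s w
          rw [map_prod]
          exact Finset.prod_congr rfl fun j _ => by
            rw [act_comm hcomm, mem_fixAll.1 hwC c hc]
        · rw [Subgroup.zpowers_le]
          show (s : MulAut V) (Φ s w) = Φ s w
          rw [map_prod]
          have hstep : ∀ j : ℕ, (s : MulAut V) (((s ^ j : A) : MulAut V) w) =
              ((s ^ (j + 1) : A) : MulAut V) w := fun j => by
            rw [pow_succ', Subgroup.coe_mul]; rfl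
          simp only [hstep]
          obtain ⟨n, hn⟩ : ∃ n, ℓ = n + 1 := ⟨ℓ - 1, by have := hℓ.out.pos; omega⟩
          show _ = ∏ j ∈ Finset.range ℓ, ((s ^ j : A) : MulAut V) w
          rw [hn, Finset.prod_range_succ, Finset.prod_range_succ', ← hn, hexp s, pow_zero]
      exact key hb
  by_cases hC1 : C = ⊤
  · exact hw1 (hfix w fun a => mem_fixAll.1 hwC a (hC1 ▸ Subgroup.mem_top a))
  obtain ⟨s, hs⟩ : ∃ s, s ∉ C := by
    by_contra! hall
    exact hC1 (eq_top_iff.2 fun a _ => hall a)
  set D := C ⊔ Subgroup.zpowers s with hD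
  by_cases hD1 : D = ⊤
  · -- index `ℓ`
    haveI : C.Normal := ⟨fun n hn g => by rwa [hcomm g n, mul_inv_cancel_right]⟩
    refine hw1 (eq_one_of_avg hexp hcop hwC (hwZ C ?_))
    have hgen : Subgroup.zpowers (QuotientGroup.mk' C s) = ⊤ := by
      rw [← MonoidHom.map_zpowers, eq_top_iff]
      intro y _
      obtain ⟨g, rfl⟩ := QuotientGroup.mk'_surjective C y
      have hg : g ∈ D := hD1 ▸ Subgroup.mem_top g
      rw [hD] at hg
      obtain ⟨c, hc, z, hz, rfl⟩ := Subgroup.mem_sup_of_normal_left.1 hg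
      rw [map_mul, (QuotientGroup.eq_one_iff c).2 hc |> fun h => show QuotientGroup.mk' C c = 1 from h,
        one_mul]
      exact Subgroup.mem_map_of_mem _ hz
    have hord : orderOf (QuotientGroup.mk' C s) = ℓ := by
      refine orderOf_eq_prime (by rw [← map_pow, hexp s, map_one]) fun h1 => hs ?_
      exact (QuotientGroup.eq_one_iff s).1 h1
    rw [Subgroup.index_eq_card, ← Subgroup.card_top, ← hgen, Nat.card_zpowers, hord]
  obtain ⟨t, ht⟩ : ∃ t, t ∉ D := by
    by_contra! hall
    exact hD1 (eq_top_iff.2 fun a _ => hall a)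
  have hmem : ∀ i : ℕ, s ^ i * t ∉ C := fun i hi => ht (by
    have : (s ^ i)⁻¹ * (s ^ i * t) ∈ D :=
      mul_mem (inv_mem (pow_mem (Subgroup.mem_sup_right (Subgroup.mem_zpowers s)) i))
        (Subgroup.mem_sup_left hi)
    rwa [inv_mul_cancel_left] at this)
  -- the lines through a plane
  have hall : ∏ i ∈ Finset.range ℓ, Φ (s ^ i * t) w = 1 :=
    Finset.prod_eq_one fun i _ => hΦ _ (hmem i)
  have hrow : ∀ j ∈ Finset.range ℓ, j ≠ 0 →
      ∏ i ∈ Finset.range ℓ, (((s ^ i * t) ^ j : A) : MulAut V) w = 1 := by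
    intro j hj hj0
    have hcopj : Nat.Coprime j ℓ := ((hℓ.out.coprime_iff_not_dvd).2 fun hd =>
      hj0 (Nat.eq_zero_of_dvd_of_lt hd (Finset.mem_range.1 hj))).symm
    have h1 : ∀ i : ℕ, (((s ^ i * t) ^ j : A) : MulAut V) w =
        ((t ^ j : A) : MulAut V) (((s ^ (i * j % ℓ) : A) : MulAut V) w) := fun i => by
      rw [(show Commute (s ^ i) t from hcomm _ _).mul_pow, ← pow_mul,
        pow_eq_pow_mod (i * j) (hexp s), hcomm, Subgroup.coe_mul]
      rfl
    rw [Finset.prod_congr rfl fun i _ => h1 i, ← map_prod]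
    have h2 : ∏ i ∈ Finset.range ℓ, ((s ^ (i * j % ℓ) : A) : MulAut V) w = Φ s w := by
      refine Finset.prod_bij (fun i _ => i * j % ℓ)
        (fun i _ => Finset.mem_range.2 (Nat.mod_lt _ hℓ.out.pos)) ?_ ?_ fun _ _ => rfl
      · intro a ha b hb hab
        exact Nat.ModEq.eq_of_lt_of_lt (Nat.ModEq.cancel_right_of_coprime hcopj.symm hab)
          (Finset.mem_range.1 ha) (Finset.mem_range.1 hb)
      · intro b hb
        obtain ⟨k, hk⟩ := Nat.exists_mul_mod_eq_one_of_coprime hcopj hℓ.out.one_lt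
        refine ⟨b * k % ℓ, Finset.mem_range.2 (Nat.mod_lt _ hℓ.out.pos), ?_⟩
        rw [Nat.mod_mul_mod, mul_assoc, mul_comm k j, Nat.mul_mod, hk.2, mul_one, Nat.mod_mod,
          Nat.mod_eq_of_lt (Finset.mem_range.1 hb)]
    rw [h2, hΦ s hs, map_one]
  have hw : ∏ i ∈ Finset.range ℓ, Φ (s ^ i * t) w = w ^ ℓ := by
    show ∏ i ∈ Finset.range ℓ, ∏ j ∈ Finset.range ℓ, (((s ^ i * t) ^ j : A) : MulAut V) w = w ^ ℓ
    rw [Finset.prod_comm, Finset.prod_eq_single_of_mem 0 (Finset.mem_range.2 hℓ.out.pos) hrow,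
      Finset.prod_congr rfl fun i _ => show (((s ^ i * t) ^ 0 : A) : MulAut V) w = w by
        rw [pow_zero]; rfl,
      Finset.prod_const, Finset.card_range]
  rw [hall] at hw
  exact hw1 (eq_one_of_pow hcop (k := 1) (by rw [pow_one]; exact hw.symm))

variable (x : MulAut V)

include hexp hcop hfix hcomm in
/-- On average over a coset fixed subgroups have order at most the square root. -/
theorem prod_card_fix_sq_le [Fintype A] (hx : ∀ a ∈ A, x * a * x⁻¹ ∈ A)
    (hx' : ∀ a ∈ A, x⁻¹ * a * x ∈ A) :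
    (∏ a : A, Nat.card (fixSub (x * (a : MulAut V)))) ^ 2 ≤ Nat.card V ^ Nat.card A := by
  classical
  haveI : Finite (MulAut V) := Finite.of_injective _ DFunLike.coe_injective
  haveI : Fintype (Subgroup A) := Fintype.ofFinite _
  haveI := Fintype.ofFinite V
  let cA : A ≃* A :=
    { toFun := fun a => ⟨x * a * x⁻¹, hx a a.2⟩
      invFun := fun a => ⟨x⁻¹ * a * x, hx' a a.2⟩
      left_inv := fun a => Subtype.ext (by simp [mul_assoc])
      right_inv := fun a => Subtype.ext (by simp [mul_assoc])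
      map_mul' := fun a b => Subtype.ext (by simp [mul_assoc]) }
  let σ : Equiv.Perm (Subgroup A) := cA.mapSubgroup.toEquiv
  have hσmem : ∀ (B : Subgroup A) (a : A), a ∈ σ B ↔ ∃ b ∈ B, cA b = a := fun B a => by
    rw [show σ B = B.map cA.toMonoidHom from rfl]; rfl
  have hσidx : ∀ B : Subgroup A, (σ B).index = B.index := fun B => Subgroup.index_map_equiv B cA
  set H := Finset.univ.filter fun B : Subgroup A => B.index = ℓ with hH
  have hHσ : ∀ (k : ℕ) (B : Subgroup A), B ∈ H → (σ ^ k) B ∈ H := by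
    intro k B hB
    induction k with
    | zero => exact hB
    | succ k ih =>
      rw [pow_succ', Equiv.Perm.mul_apply, hH, Finset.mem_filter, hσidx]
      exact ⟨Finset.mem_univ _, (Finset.mem_filter.1 ih).2⟩
  -- components
  have hzero : ∀ B ∈ H, ∀ B' ∈ H, B ≠ B' → ∀ w ∈ fixAll B, avg B' w = 1 := by
    intro B hB B' hB' hne w hw
    refine hfix _ fun a => ?_
    have h1 : avg B' w ∈ fixAll B := mem_fixAll.2 fun b hb => by
      rw [← avg_act hcomm, mem_fixAll.1 hw b hb]
    have key : B ⊔ B' ≤ (MulAction.stabilizer (MulAut V) (avg B' w)).comap A.subtype :=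
      sup_le (fun b hb => mem_fixAll.1 h1 b hb) (fun b hb => mem_fixAll.1 (avg_mem B' w) b hb)
    have htop : B ⊔ B' = ⊤ := by
      have h2 := Subgroup.index_dvd_of_le (le_sup_left : B ≤ B ⊔ B')
      rw [(Finset.mem_filter.1 hB).2] at h2
      rcases (Nat.dvd_prime hℓ.out).1 h2 with h3 | h3
      · exact Subgroup.index_eq_one.1 h3
      · refine absurd ?_ hne
        have hi := (Finset.mem_filter.1 hB).2
        have hi' := (Finset.mem_filter.1 hB').2
        have hc := Subgroup.card_mul_index B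
        rw [← Subgroup.card_mul_index (B ⊔ B'), h3, hi] at hc
        have e1 : B = B ⊔ B' :=
          Subgroup.eq_of_le_of_card_ge le_sup_left (Nat.eq_of_mul_eq_mul_right hℓ.out.pos hc).ge
        have hle : B' ≤ B := e1 ▸ le_sup_right
        refine (Subgroup.eq_of_le_of_card_ge hle ?_).symm
        have hb' := Subgroup.card_mul_index B'
        rw [← Subgroup.card_mul_index B, hi, hi'] at hb'
        exact (Nat.eq_of_mul_eq_mul_right hℓ.out.pos hb').ge
    exact key (htop ▸ Subgroup.mem_top a)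
  have hprodW : ∏ B ∈ H, Nat.card (fixAll B) ≤ Nat.card V := by
    rw [← Finset.prod_coe_sort H fun B => Nat.card (fixAll B), ← Nat.card_pi]
    refine Nat.card_le_card_of_injective (fun f => ∏ B : H, (f B : V)) fun f g hfg => ?_
    simp only at hfg
    funext B
    refine Subtype.ext (mul_inv_eq_one.1 (eq_one_of_avg hexp hcop
      ((fixAll (B : Subgroup A)).mul_mem (f B).2 ((fixAll (B : Subgroup A)).inv_mem (g B).2)) ?_))
    have hk : ∀ k : (B : H) → fixAll (B : Subgroup A),
        avg (B : Subgroup A) (∏ C : H, (k C : V)) = avg (B : Subgroup A) (k B : V) := fun k => by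
      rw [map_prod]
      exact Finset.prod_eq_single B (fun C _ hC => hzero _ C.2 _ B.2
        (fun e => hC (Subtype.ext e)) _ (k C).2) (by simp)
    rw [map_mul, map_inv, ← hk f, ← hk g, hfg, mul_inv_cancel]
  -- orbit representatives
  obtain ⟨ord⟩ : Nonempty (Subgroup A ≃ Fin (Fintype.card (Subgroup A))) := ⟨Fintype.equivFin _⟩
  set F := H.filter fun B => σ B = B with hF
  set R := H.filter fun B => σ B ≠ B ∧ ∀ k : ℕ, ord B ≤ ord ((σ ^ k) B) with hR
  have hback : ∀ B : Subgroup A, ∃ k : ℕ, (σ ^ k) (σ B) = B := fun B => ⟨orderOf σ - 1, by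
    rw [← Equiv.Perm.mul_apply, ← pow_succ, Nat.sub_add_cancel (orderOf_pos σ), pow_orderOf_eq_one]
    rfl⟩
  have hRR : Disjoint R (R.image σ) := by
    rw [Finset.disjoint_left]
    intro B hB hB'
    obtain ⟨C, hC, rfl⟩ := Finset.mem_image.1 hB'
    obtain ⟨-, -, hCmin⟩ := Finset.mem_filter.1 hC
    obtain ⟨-, hne, hmin⟩ := Finset.mem_filter.1 hB
    obtain ⟨k, hk⟩ := hback C
    have h1 := hCmin 1
    have h2 := hmin k
    rw [pow_one] at h1
    rw [hk] at h2
    have he : σ C = C := ord.injective (le_antisymm h2 h1)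
    exact hne (congrArg σ he)
  have hRsub : R ∪ R.image σ ⊆ H \ F := by
    intro B hB
    rcases Finset.mem_union.1 hB with h | h
    · obtain ⟨h1, h2, -⟩ := Finset.mem_filter.1 h
      exact Finset.mem_sdiff.2 ⟨h1, fun h3 => h2 (Finset.mem_filter.1 h3).2⟩
    · obtain ⟨C, hC, rfl⟩ := Finset.mem_image.1 h
      obtain ⟨h1, h2, -⟩ := Finset.mem_filter.1 hC
      refine Finset.mem_sdiff.2 ⟨by simpa using hHσ 1 C h1, fun h3 => h2 ?_⟩
      exact σ.injective (Finset.mem_filter.1 h3).2
  -- `x` carries the components to one another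
  have hcarry : ∀ (y : MulAut V) (B : Subgroup A), (∀ b : A, y * b * y⁻¹ = (cA b : A)) →
      ∀ v : V, avg (σ B) (y v) = y (avg B v) := by
    intro y B hy v
    letI := Fintype.ofFinite B
    letI := Fintype.ofFinite (σ B)
    rw [avg_apply, avg_apply, map_prod]
    refine (Fintype.prod_equiv (Equiv.subtypeEquiv cA.toEquiv fun b =>
      ⟨fun h => (hσmem B _).2 ⟨b, h, rfl⟩, fun h => ?_⟩) _ _ fun b => ?_).symm
    · obtain ⟨c, hc, hcb⟩ := (hσmem B _).1 h
      exact cA.injective hcb ▸ hc
    show y (((b : A) : MulAut V) v) = ((cA b : A) : MulAut V) (y v)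
    rw [← hy b]
    simp [MulAut.mul_apply]
  have hfixW : ∀ B ∈ H, Nat.card (fixAll (σ B)) = Nat.card (fixAll B) := by
    intro B _
    refine (Nat.card_congr (Equiv.subtypeEquiv x.toEquiv fun v => ?_)).symm
    rw [mem_fixAll, mem_fixAll]
    refine ⟨fun h a ha => ?_, fun h b hb => ?_⟩
    · obtain ⟨b, hb, rfl⟩ := (hσmem B a).1 ha
      show (x * (b : MulAut V) * x⁻¹) (x v) = x v
      rw [MulAut.mul_apply, MulAut.mul_apply, MulAut.inv_apply, MulEquiv.symm_apply_apply, h b hb]
    · have h1 := h (cA b) ((hσmem B _).2 ⟨b, hb, rfl⟩)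
      have h2 : x ((b : MulAut V) v) = x v := by
        simpa [cA, MulAut.mul_apply] using h1
      exact x.injective h2
  -- the bound for one element of the coset
  have hone : ∀ a : A, Nat.card (fixSub (x * (a : MulAut V))) ≤
      (∏ B ∈ F, Nat.card ↥(fixSub (x * (a : MulAut V)) ⊓ fixAll B)) *
        ∏ B ∈ R, Nat.card (fixAll B) := by
    intro a
    set y := x * (a : MulAut V) with hy
    have hconj : ∀ b : A, y * b * y⁻¹ = (cA b : A) := fun b => by
      show x * (a : MulAut V) * (b : MulAut V) * (x * (a : MulAut V))⁻¹ = x * b * x⁻¹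
      have h1 : (a : MulAut V) * b = b * a := congrArg Subtype.val (hcomm a b)
      rw [mul_inv_rev, mul_assoc x, h1]
      group
    have hfx : ∀ (v : fixSub y) (B : Subgroup A), avg (σ B) (v : V) = y (avg B v) := fun v B => by
      rw [← hcarry y B hconj, show y (v : V) = v from v.2]
    rw [← Finset.prod_coe_sort F fun B => Nat.card ↥(fixSub y ⊓ fixAll B),
      ← Finset.prod_coe_sort R fun B => Nat.card (fixAll B), ← Nat.card_pi, ← Nat.card_pi,
      ← Nat.card_prod]
    refine Nat.card_le_card_of_injective (fun v : fixSub y =>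
      ((fun B : F => (⟨avg (B : Subgroup A) (v : V), Subgroup.mem_inf.2 ⟨?_, avg_mem _ _⟩⟩ :
          ↥(fixSub y ⊓ fixAll (B : Subgroup A)))),
        fun B : R => (⟨avg (B : Subgroup A) (v : V), avg_mem _ _⟩ : fixAll (B : Subgroup A))))
      fun v v' hvv => ?_
    · rw [mem_fixSub, ← hfx v (B : Subgroup A), (Finset.mem_filter.1 B.2).2]
    obtain ⟨hvF, hvR⟩ := Prod.ext_iff.1 hvv
    refine Subtype.ext (mul_inv_eq_one.1 (eq_one_of_avgs hcomm hexp hcop hfix fun B hB => ?_))
    rw [map_mul, map_inv, mul_inv_eq_one]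
    have hBH : B ∈ H := Finset.mem_filter.2 ⟨Finset.mem_univ _, hB⟩
    by_cases hBF : σ B = B
    · exact congrArg Subtype.val (congrFun hvF ⟨B, Finset.mem_filter.2 ⟨hBH, hBF⟩⟩)
    obtain ⟨C, hC, hCmin⟩ := Finset.exists_min_image
      (Finset.univ.filter fun C : Subgroup A => ∃ k : ℕ, (σ ^ k) B = C) ord
      ⟨B, Finset.mem_filter.2 ⟨Finset.mem_univ _, 0, rfl⟩⟩
    obtain ⟨k, rfl⟩ := (Finset.mem_filter.1 hC).2
    have hmoved : σ ((σ ^ k) B) ≠ (σ ^ k) B := fun h => hBF ((σ ^ k).injective (by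
      rw [← Equiv.Perm.mul_apply, (Commute.refl σ).pow_left k |>.eq, Equiv.Perm.mul_apply, h]))
    have hCR : (σ ^ k) B ∈ R := Finset.mem_filter.2 ⟨hHσ k B hBH, hmoved, fun j =>
      hCmin _ (Finset.mem_filter.2 ⟨Finset.mem_univ _, j + k, by rw [pow_add]; rfl⟩)⟩
    have hstep : ∀ j : ℕ, avg ((σ ^ j) B) (v : V) = avg ((σ ^ j) B) (v' : V) →
        avg B (v : V) = avg B (v' : V) := by
      intro j
      induction j with
      | zero => exact id
      | succ j ih =>
        intro h
        rw [pow_succ', Equiv.Perm.mul_apply, hfx v, hfx v'] at h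
        exact ih (y.injective h)
    exact hstep k (congrArg Subtype.val (congrFun hvR ⟨_, hCR⟩))
  -- pairing on a fixed component
  have hpair : ∀ B ∈ F, (∏ a : A, Nat.card ↥(fixSub (x * (a : MulAut V)) ⊓ fixAll B)) ^ 2 ≤
      Nat.card (fixAll B) ^ Nat.card A := by
    intro B hB
    obtain ⟨b, hb⟩ : ∃ b : A, b ∉ B := by
      by_contra! hall
      have : B = ⊤ := eq_top_iff.2 fun a _ => hall a
      have hi := (Finset.mem_filter.1 (Finset.mem_filter.1 hB).1).2
      rw [this, Subgroup.index_top] at hi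
      exact hℓ.out.one_lt.ne hi
    rw [sq, show (∏ a : A, Nat.card ↥(fixSub (x * (a : MulAut V)) ⊓ fixAll B)) *
        (∏ a : A, Nat.card ↥(fixSub (x * (a : MulAut V)) ⊓ fixAll B)) =
        (∏ a : A, Nat.card ↥(fixSub (x * (a : MulAut V)) ⊓ fixAll B)) *
        (∏ a : A, Nat.card ↥(fixSub (x * ((a * b : A) : MulAut V)) ⊓ fixAll B)) from
      congrArg _ (Fintype.prod_equiv (Equiv.mulRight b) _ _ fun a => rfl).symm,
      ← Finset.prod_mul_distrib, Nat.card_eq_fintype_card (α := A), ← Finset.card_univ,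
      ← Finset.prod_const]
    refine Finset.prod_le_prod (fun a _ => Nat.zero_le _) fun a _ => ?_
    rw [← Nat.card_prod]
    refine Nat.card_le_card_of_injective (fun q => (⟨(q.1 : V) * q.2,
      mul_mem (Subgroup.mem_inf.1 q.1.2).2 (Subgroup.mem_inf.1 q.2.2).2⟩ : fixAll B))
      fun q q' h => ?_
    have hval : (q.1 : V) * q.2 = q'.1 * q'.2 := congrArg Subtype.val h
    have h1 : (q'.1 : V)⁻¹ * q.1 = q'.2 * (q.2 : V)⁻¹ := by
      rw [eq_mul_inv_iff_mul_eq, mul_assoc, hval, inv_mul_cancel_left]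
    have hu : (q'.1 : V)⁻¹ * q.1 = 1 := by
      have m1 : (q'.1 : V)⁻¹ * q.1 ∈ fixSub (x * (a : MulAut V)) ⊓ fixAll B :=
        mul_mem (inv_mem q'.1.2) q.1.2
      have m2 : (q'.1 : V)⁻¹ * q.1 ∈ fixSub (x * ((a * b : A) : MulAut V)) ⊓ fixAll B :=
        h1 ▸ mul_mem q'.2.2 (inv_mem q.2.2)
      set u := (q'.1 : V)⁻¹ * q.1
      obtain ⟨n1, n3⟩ := Subgroup.mem_inf.1 m1
      have hbu : (b : MulAut V) u = u := by
        have n2 := mem_fixSub.1 (Subgroup.mem_inf.1 m2).1
        have e : x ((a : MulAut V) ((b : MulAut V) u)) = x ((a : MulAut V) u) :=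
          n2.trans (mem_fixSub.1 n1).symm
        exact (a : MulAut V).injective (x.injective e)
      refine eq_one_of_avgs hcomm hexp hcop hfix fun B' hB' => ?_
      by_cases hBB : B' = B
      · subst hBB
        refine hfix _ fun c => ?_
        have key : B' ⊔ Subgroup.zpowers b ≤
            (MulAction.stabilizer (MulAut V) (avg B' u)).comap A.subtype := by
          refine sup_le (fun c hc => mem_fixAll.1 (avg_mem B' u) c hc) ?_
          rw [Subgroup.zpowers_le]
          show (b : MulAut V) (avg B' u) = avg B' u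
          rw [← avg_act hcomm, hbu]
        have htop : B' ⊔ Subgroup.zpowers b = ⊤ := by
          have h2 := Subgroup.index_dvd_of_le (le_sup_left : B' ≤ B' ⊔ Subgroup.zpowers b)
          rw [hB'] at h2
          rcases (Nat.dvd_prime hℓ.out).1 h2 with h3 | h3
          · exact Subgroup.index_eq_one.1 h3
          · refine absurd ?_ hb
            have hc := Subgroup.card_mul_index B'
            rw [← Subgroup.card_mul_index (B' ⊔ Subgroup.zpowers b), h3, hB'] at hc
            rw [Subgroup.eq_of_le_of_card_ge (le_sup_left : B' ≤ B' ⊔ Subgroup.zpowers b)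
              (Nat.eq_of_mul_eq_mul_right hℓ.out.pos hc).ge]
            exact Subgroup.mem_sup_right (Subgroup.mem_zpowers b)
        exact key (htop ▸ Subgroup.mem_top c)
      · exact hzero B (Finset.mem_filter.1 hB).1 B' (Finset.mem_filter.2 ⟨Finset.mem_univ _, hB'⟩)
          (Ne.symm hBB) u n3
    have e1 : (q.1 : V) = q'.1 := (inv_mul_eq_one.1 hu).symm
    refine Prod.ext (Subtype.ext e1) (Subtype.ext ?_)
    rw [e1] at hval
    exact mul_left_cancel hval
  -- assembly
  have hRsq : (∏ B ∈ R, Nat.card (fixAll B)) ^ 2 ≤ ∏ B ∈ H \ F, Nat.card (fixAll B) := by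
    have h1 : ∏ B ∈ R.image σ, Nat.card (fixAll B) = ∏ B ∈ R, Nat.card (fixAll B) := by
      rw [Finset.prod_image fun a _ b _ h => σ.injective h]
      exact Finset.prod_congr rfl fun B hB => hfixW B (Finset.mem_filter.1 hB).1
    rw [sq]
    nth_rewrite 2 [← h1]
    rw [← Finset.prod_union hRR]
    exact Finset.prod_le_prod_of_subset_of_one_le' hRsub fun B _ _ => Nat.card_pos
  calc (∏ a : A, Nat.card (fixSub (x * (a : MulAut V)))) ^ 2
      ≤ (∏ a : A, (∏ B ∈ F, Nat.card ↥(fixSub (x * (a : MulAut V)) ⊓ fixAll B)) *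
          ∏ B ∈ R, Nat.card (fixAll B)) ^ 2 :=
        Nat.pow_le_pow_left (Finset.prod_le_prod (fun _ _ => Nat.zero_le _) fun a _ => hone a) 2
    _ = (∏ B ∈ F, (∏ a : A, Nat.card ↥(fixSub (x * (a : MulAut V)) ⊓ fixAll B)) ^ 2) *
          ((∏ B ∈ R, Nat.card (fixAll B)) ^ 2) ^ Nat.card A := by
        rw [Finset.prod_mul_distrib, Finset.prod_comm, Finset.prod_const, Finset.card_univ,
          ← Nat.card_eq_fintype_card, mul_pow, Finset.prod_pow, ← pow_mul, ← pow_mul, mul_comm 2]
    _ ≤ (∏ B ∈ F, Nat.card (fixAll B) ^ Nat.card A) *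
          (∏ B ∈ H \ F, Nat.card (fixAll B)) ^ Nat.card A :=
        Nat.mul_le_mul (Finset.prod_le_prod (fun _ _ => Nat.zero_le _) hpair)
          (Nat.pow_le_pow_left hRsq _)
    _ = (∏ B ∈ H, Nat.card (fixAll B)) ^ Nat.card A := by
        rw [Finset.prod_pow, ← mul_pow, mul_comm, Finset.prod_sdiff (Finset.filter_subset _ _)]
    _ ≤ Nat.card V ^ Nat.card A := Nat.pow_le_pow_left hprodW _

end

end Cfsg.Agent.Lib.PrimClass
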