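import Cfsg.Agent.Lib.PrimClass.AvgFix
import Cfsg.Agent.Lib.Block.NormalDefect
import Cfsg.Agent.Lib.Hall.Solvable

/-!
# Primitive characters and class sizes

For a primitive irreducible character of a solvable group the `p`-part of the degree is bounded by
the average of the `p`-parts of the class sizes.
-/

set_option autoImplicit false
set_option linter.unusedSectionVars false
set_option linter.style.haveILetI false

namespace Cfsg.Agent.Lib.PrimClass

open Cfsg Cfsg.Agent.Lib

universe u

variable {G : Type u} [Group G]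

/-- Fixed points of an irreducible nontrivial solvable linear group on average. -/
theorem two_mul_sum_fix_le [Fintype G] {V : Type u} [CommGroup V] [Finite V] {p d : ℕ}
    [hp : Fact p.Prime] (hV : Nat.card V = p ^ d) (ρ : G →* MulAut V) (hG : Group.IsSolvable G)
    (hirr : ∀ U : Subgroup V, (∀ g, ∀ u ∈ U, ρ g u ∈ U) → U = ⊥ ∨ U = ⊤) (hne : ∃ g, ρ g ≠ 1) :
    2 * ∑ g : G, (Nat.card (fixSub (ρ g))).factorization p ≤ Fintype.card G * d := by
  classical
  haveI : Finite (MulAut V) := Finite.of_injective _ DFunLike.coe_injective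
  set K₀ : Subgroup (MulAut V) := ρ.range with hK₀
  have hK₀ne : K₀ ≠ ⊥ := by
    obtain ⟨g, hg⟩ := hne
    intro h
    exact hg (Subgroup.mem_bot.1 (h ▸ (⟨g, rfl⟩ : ρ g ∈ K₀)))
  haveI : Nontrivial K₀ := (Subgroup.nontrivial_iff_ne_bot _).2 hK₀ne
  haveI : Group.IsSolvable K₀ := Group.isSolvable_of_surjective ρ.rangeRestrict_surjective
  obtain ⟨A₁, hA₁n, hA₁ne, -, hmin⟩ := Hall.exists_minimal_normal_le (G := K₀) (N := ⊤) top_ne_bot
  obtain ⟨hA₁c, ℓ, hℓ, hpow⟩ := Hall.minimal_normal_solvable A₁ hA₁ne hmin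
  haveI : Fact ℓ.Prime := ⟨hℓ⟩
  set A : Subgroup (MulAut V) := A₁.map K₀.subtype with hA
  have hAmem : ∀ a : A, ∃ a₁ : K₀, a₁ ∈ A₁ ∧ (a₁ : MulAut V) = a := fun a => by
    obtain ⟨a₁, h1, h2⟩ := Subgroup.mem_map.1 a.2
    exact ⟨a₁, h1, h2⟩
  have hAle : A ≤ K₀ := Subgroup.map_subtype_le _
  have hcomm : ∀ a b : A, a * b = b * a := fun a b => by
    obtain ⟨a₁, ha, ha'⟩ := hAmem a
    obtain ⟨b₁, hb, hb'⟩ := hAmem b
    have := congrArg Subtype.val (hA₁c.is_comm.comm (⟨a₁, ha⟩ : A₁) ⟨b₁, hb⟩)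
    refine Subtype.ext ?_
    rw [Subgroup.coe_mul, Subgroup.coe_mul, ← ha', ← hb']
    exact congrArg Subtype.val this
  have hexp : ∀ a : A, a ^ ℓ = 1 := fun a => by
    obtain ⟨a₁, ha, ha'⟩ := hAmem a
    refine Subtype.ext ?_
    rw [SubmonoidClass.coe_pow, ← ha', ← SubmonoidClass.coe_pow, hpow a₁ ha]
    rfl
  have hconj : ∀ g : G, ∀ a ∈ A, ρ g * a * (ρ g)⁻¹ ∈ A := fun g a ha => by
    obtain ⟨a₁, h1, rfl⟩ := Subgroup.mem_map.1 ha
    exact ⟨⟨ρ g, g, rfl⟩ * a₁ * (⟨ρ g, g, rfl⟩ : K₀)⁻¹, hA₁n.conj_mem _ h1 _, rfl⟩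
  -- no fixed points
  have hAne : A ≠ ⊥ := fun h =>
    hA₁ne ((Subgroup.map_eq_bot_iff_of_injective _ K₀.subtype_injective).1 h)
  let U : Subgroup V := fixAll (A := A) ⊤
  have hU : U = ⊥ := by
    refine (hirr U fun g u hu => mem_fixAll.2 fun a _ => ?_).resolve_right fun h => hAne ?_
    · have hc := hconj g⁻¹ a a.2
      have h1 := mem_fixAll.1 hu ⟨_, hc⟩ (Subgroup.mem_top _)
      calc (a : MulAut V) (ρ g u) = ρ g ((ρ g⁻¹ * (a : MulAut V) * (ρ g⁻¹)⁻¹) u) := by
            simp [MulAut.mul_apply, map_inv]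
        _ = ρ g u := congrArg (ρ g) h1
    · rw [eq_bot_iff]
      intro a ha
      refine Subgroup.mem_bot.2 (MulEquiv.ext fun v => ?_)
      exact mem_fixAll.1 (h ▸ Subgroup.mem_top v : v ∈ U) ⟨a, ha⟩ (Subgroup.mem_top _)
  have hfix : ∀ v : V, (∀ a : A, (a : MulAut V) v = v) → v = 1 := fun v hv =>
    Subgroup.mem_bot.1 (hU ▸ mem_fixAll.2 fun a _ => hv a)
  haveI : Fintype A := Fintype.ofFinite A
  rcases Nat.eq_zero_or_pos d with rfl | hd
  · simp only [mul_zero, nonpos_iff_eq_zero, mul_eq_zero, OfNat.ofNat_ne_zero, false_or]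
    refine Finset.sum_eq_zero fun g _ => ?_
    have h1 : Nat.card (fixSub (ρ g)) ∣ 1 := by
      simpa [hV] using Subgroup.card_subgroup_dvd_card (fixSub (ρ g))
    simp [Nat.dvd_one.1 h1]
  have hcop : ¬ ℓ ∣ Nat.card V := by
    intro hdiv
    rw [hV] at hdiv
    obtain rfl : ℓ = p := (Nat.prime_dvd_prime_iff_eq hℓ hp.out).1 (hℓ.dvd_of_dvd_pow hdiv)
    have hpA : IsPGroup ℓ A := fun a => ⟨1, by rw [pow_one]; exact hexp a⟩
    obtain ⟨b, hb, hb1⟩ := hpA.exists_fixed_point_of_prime_dvd_card_of_fixed_point V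
      (by rw [hV]; exact dvd_pow_self ℓ hd.ne') (a := (1 : V)) (fun a => map_one (a : MulAut V))
    exact hb1 (hfix b fun a => hb a).symm
  -- average over the cosets
  obtain ⟨n, hn⟩ : ∃ n : G → ℕ, ∀ g, n g = (Nat.card (fixSub (ρ g))).factorization p :=
    ⟨_, fun _ => rfl⟩
  simp only [← hn]
  have hcoset : ∀ g : G, 2 * ∑ a : A, (Nat.card (fixSub (ρ g * (a : MulAut V)))).factorization p ≤
      Fintype.card A * d := by
    intro g
    have h1 := prod_card_fix_sq_le hcomm hexp hcop hfix (ρ g) (hconj g) (fun a ha => by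
      simpa using hconj g⁻¹ a ha)
    have h2 : ∀ y : MulAut V, Nat.card (fixSub y) = p ^ (Nat.card (fixSub y)).factorization p :=
      fun y => by
        obtain ⟨k, -, hk⟩ := (Nat.dvd_prime_pow hp.out).1 (hV ▸ Subgroup.card_subgroup_dvd_card (fixSub y))
        rw [hk, Nat.Prime.factorization_pow hp.out, Finsupp.single_eq_same]
    rw [Finset.prod_congr rfl fun (a : A) _ => h2 (ρ g * (a : MulAut V)), Finset.prod_pow_eq_pow_sum, hV,
      ← pow_mul, ← pow_mul, Nat.card_eq_fintype_card] at h1
    have := (Nat.pow_le_pow_iff_right hp.out.one_lt).1 h1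
    rw [mul_comm _ 2, mul_comm d] at this
    exact this
  have hshift : ∀ a : A, ∑ g : G, (Nat.card (fixSub (ρ g * (a : MulAut V)))).factorization p =
      ∑ g : G, n g := by
    intro a
    obtain ⟨b, hb⟩ := hAle a.2
    refine Fintype.sum_equiv (Equiv.mulRight b) _ _ fun g => ?_
    rw [hn, Equiv.coe_mulRight, map_mul, hb]
  have hsum : Fintype.card A * (2 * ∑ g : G, n g) ≤ Fintype.card A * (Fintype.card G * d) := by
    calc Fintype.card A * (2 * ∑ g : G, n g)
        = ∑ a : A, 2 * ∑ g : G, (Nat.card (fixSub (ρ g * (a : MulAut V)))).factorization p := by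
          simp only [hshift, Finset.sum_const, Finset.card_univ, smul_eq_mul]
      _ = ∑ g : G, 2 * ∑ a : A, (Nat.card (fixSub (ρ g * (a : MulAut V)))).factorization p := by
          rw [← Finset.mul_sum, ← Finset.mul_sum, Finset.sum_comm]
      _ ≤ ∑ _g : G, Fintype.card A * d := Finset.sum_le_sum fun g _ => hcoset g
      _ = Fintype.card A * (Fintype.card G * d) := by
          rw [Finset.sum_const, Finset.card_univ, smul_eq_mul]; ring
  exact Nat.le_of_mul_le_mul_left hsum Fintype.card_pos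

variable [Fintype G]

/-- The image of `N` in `G / L`. -/
def quotImg (N L : Subgroup G) [L.Normal] : Subgroup (G ⧸ L) := N.map (QuotientGroup.mk' L)

instance quotImg_normal (N L : Subgroup G) [N.Normal] [L.Normal] : (quotImg N L).Normal :=
  Subgroup.Normal.map inferInstance _ (QuotientGroup.mk'_surjective L)

/-- The action of `G` on `N / L`. -/
noncomputable def quotAct (N L : Subgroup G) [N.Normal] [L.Normal] : G →* MulAut (quotImg N L) :=
  MulAut.conjNormal.comp (QuotientGroup.mk' L)

theorem card_quotImg {N L : Subgroup G} [L.Normal] (hLN : L ≤ N) :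
    Nat.card (quotImg N L) = L.relIndex N := by
  have h := Subgroup.relIndex_map_map (QuotientGroup.mk' L) (⊥ : Subgroup G) N
  rw [Subgroup.map_bot, bot_sup_eq, QuotientGroup.ker_mk', sup_eq_left.2 hLN,
    Subgroup.relIndex_bot_left] at h
  exact h

/-- The index of a subgroup in its product with a normal one. -/
theorem relIndex_sup_normal (L X : Subgroup G) [L.Normal] :
    X.relIndex (L ⊔ X) = X.relIndex L := by
  have hcard : ∀ {H K : Subgroup G}, H ≤ K → Nat.card H * H.relIndex K = Nat.card K := fun {H K} h => by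
    rw [← Subgroup.relIndex_bot_left H, ← Subgroup.relIndex_bot_left K,
      Subgroup.relIndex_mul_relIndex _ _ _ bot_le h]
  have h1 := hcard (le_sup_right : X ≤ L ⊔ X)
  have h2 := hcard (le_sup_left : L ≤ L ⊔ X)
  have h3 := hcard (inf_le_right : L ⊓ X ≤ X)
  have h4 := hcard (inf_le_left : L ⊓ X ≤ L)
  rw [Subgroup.relIndex_sup_left] at h2
  rw [Subgroup.inf_relIndex_right] at h3
  rw [inf_comm, Subgroup.inf_relIndex_right, inf_comm] at h4
  rw [← h1, ← h3, ← h4] at h2
  have h5 : Nat.card ↥(L ⊓ X) * L.relIndex X * X.relIndex (L ⊔ X) =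
      Nat.card ↥(L ⊓ X) * L.relIndex X * X.relIndex L := by rw [← h2]; ring
  exact Nat.eq_of_mul_eq_mul_left
    (Nat.pos_of_ne_zero (mul_ne_zero Nat.card_pos.ne' Subgroup.index_ne_zero_of_finite)) h5

/-- The class size restricted to a normal subgroup. -/
noncomputable def classVal (p : ℕ) (N : Subgroup G) (g : G) : ℕ :=
  ((Subgroup.centralizer ({g} : Set G)).relIndex N).factorization p

theorem classVal_step {p : ℕ} [hp : Fact p.Prime] {N L : Subgroup G} [N.Normal] [L.Normal]
    (hLN : L ≤ N) (g : G) :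
    classVal p L g + (L.relIndex N).factorization p ≤
      classVal p N g + (Nat.card {v : quotImg N L // quotAct N L g v = v}).factorization p := by
  classical
  set C := Subgroup.centralizer ({g} : Set G) with hC
  obtain ⟨M, hM⟩ : ∃ M, M = L ⊔ (C ⊓ N) := ⟨_, rfl⟩
  have hLM : L ≤ M := hM ▸ le_sup_left
  have hMN : M ≤ N := hM ▸ sup_le hLN inf_le_right
  have h1 : (C ⊓ N).relIndex M * M.relIndex N = C.relIndex N := by
    rw [Subgroup.relIndex_mul_relIndex _ _ _ (hM ▸ le_sup_right) hMN, Subgroup.inf_relIndex_right]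
  have h2 : L.relIndex M * M.relIndex N = L.relIndex N := Subgroup.relIndex_mul_relIndex _ _ _ hLM hMN
  have h3 : (C ⊓ N).relIndex M = C.relIndex L := by
    rw [hM, relIndex_sup_normal, ← Subgroup.inf_relIndex_right (C ⊓ N) L,
      inf_assoc, inf_eq_right.2 hLN, Subgroup.inf_relIndex_right]
  have h4 : L.relIndex M ∣ Nat.card {v : quotImg N L // quotAct N L g v = v} := by
    rw [← card_quotImg hLM]
    obtain ⟨F, hF⟩ : ∃ F : Subgroup (G ⧸ L), F = quotImg N L ⊓
        Subgroup.centralizer {QuotientGroup.mk' L g} := ⟨_, rfl⟩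
    have hcard : Nat.card {v : quotImg N L // quotAct N L g v = v} = Nat.card F := by
      refine Nat.card_congr ((Equiv.subtypeSubtypeEquivSubtypeExists _ _).trans
        (Equiv.subtypeEquivRight fun x => ?_))
      rw [hF, Subgroup.mem_inf, Subgroup.mem_centralizer_singleton_iff]
      simp only [exists_prop, Subtype.ext_iff, quotAct, MonoidHom.coe_comp, Function.comp_apply,
        MulAut.conjNormal_apply, mul_inv_eq_iff_eq_mul, and_congr_right_iff]
      intro _
      exact eq_comm
    rw [hcard]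
    refine Subgroup.card_dvd_of_le ?_
    rw [hF, hM, quotImg, Subgroup.map_sup, (Subgroup.map_eq_bot_iff _).2 (QuotientGroup.ker_mk' L).ge,
      bot_sup_eq]
    refine le_inf (Subgroup.map_mono inf_le_right) ?_
    rintro x ⟨y, hy, rfl⟩
    rw [Subgroup.mem_centralizer_singleton_iff, ← map_mul, ← map_mul,
      Subgroup.mem_centralizer_singleton_iff.1 (Subgroup.mem_inf.1 hy).1]
  have hne : ∀ H K : Subgroup G, H.relIndex K ≠ 0 := fun H K => Subgroup.index_ne_zero_of_finite
  haveI : Nonempty {v : quotImg N L // quotAct N L g v = v} := ⟨⟨1, map_one _⟩⟩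
  have h5 := ((Nat.factorization_le_iff_dvd (hne _ _) Nat.card_pos.ne').2 h4) p
  unfold classVal
  rw [← h1, ← h2, ← h3, Nat.factorization_mul (hne _ _) (hne _ _),
    Nat.factorization_mul (hne _ _) (hne _ _)]
  simp only [Finsupp.add_apply]
  omega

theorem classVal_mono {p : ℕ} [Fact p.Prime] {N L : Subgroup G} [N.Normal] [L.Normal]
    (hLN : L ≤ N) (g : G) : classVal p L g ≤ classVal p N g := by
  unfold classVal
  refine (Nat.factorization_le_iff_dvd Subgroup.index_ne_zero_of_finite
    Subgroup.index_ne_zero_of_finite).2 ?_ p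
  set C := Subgroup.centralizer ({g} : Set G) with hC
  refine Dvd.intro ((L ⊔ (C ⊓ N)).relIndex N) ?_
  have h1 : (C ⊓ N).relIndex (L ⊔ (C ⊓ N)) = C.relIndex L := by
    rw [relIndex_sup_normal, ← Subgroup.inf_relIndex_right (C ⊓ N) L, inf_assoc,
      inf_eq_right.2 hLN, Subgroup.inf_relIndex_right]
  change C.relIndex L * (L ⊔ (C ⊓ N)).relIndex N = C.relIndex N
  rw [← h1, Subgroup.relIndex_mul_relIndex _ _ _ le_sup_right (sup_le hLN inf_le_right),
    Subgroup.inf_relIndex_right]

/-- A chief factor exists below every nontrivial normal subgroup. -/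
theorem exists_chief (hG : Group.IsSolvable G) {N : Subgroup G} [N.Normal] (hN : N ≠ ⊥) :
    ∃ (L : Subgroup G) (_ : L.Normal), L < N ∧
      (∀ K : Subgroup G, K.Normal → L ≤ K → K ≤ N → K = L ∨ K = N) ∧
      IsMulCommutative (quotImg N L) ∧ ∃ q d : ℕ, q.Prime ∧ L.relIndex N = q ^ d := by
  classical
  haveI := hG
  obtain ⟨L, ⟨hLn, hLN⟩, hmax⟩ := Set.Finite.exists_maximal
    (s := {L : Subgroup G | L.Normal ∧ L < N}) (Set.toFinite _) ⟨⊥, inferInstance, bot_lt_iff_ne_bot.2 hN⟩
  haveI := hLn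
  have hchief : ∀ K : Subgroup G, K.Normal → L ≤ K → K ≤ N → K = L ∨ K = N := fun K hK hLK hKN =>
    or_iff_not_imp_right.2 fun h => le_antisymm (hmax (y := K) ⟨hK, lt_of_le_of_ne hKN h⟩ hLK) hLK
  haveI : Group.IsSolvable (quotImg N L) := inferInstance
  have hne : quotImg N L ≠ ⊥ := fun h => by
    rw [quotImg, Subgroup.map_eq_bot_iff, QuotientGroup.ker_mk'] at h
    exact not_le_of_gt hLN h
  obtain ⟨hc, q, hq, hpow⟩ := Hall.minimal_normal_solvable (quotImg N L) hne fun M hM hMle => by
    have h1 : (M.comap (QuotientGroup.mk' L)).map (QuotientGroup.mk' L) = M :=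
      Subgroup.map_comap_eq_self_of_surjective (QuotientGroup.mk'_surjective L) M
    have h2 : M.comap (QuotientGroup.mk' L) ≤ N := by
      refine (Subgroup.comap_mono hMle).trans ?_
      rw [quotImg, Subgroup.comap_map_eq, QuotientGroup.ker_mk', sup_eq_left.2 hLN.le]
    rcases hchief _ (hM.comap _) ((QuotientGroup.ker_mk' L).ge.trans (Subgroup.ker_le_comap _ _)) h2
      with h | h
    · left
      rw [← h1, h, Subgroup.map_eq_bot_iff, QuotientGroup.ker_mk']
    · right
      rw [← h1, h]; rfl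
  haveI : Fact q.Prime := ⟨hq⟩
  obtain ⟨d, hd⟩ := (Hall.isPGroup_of_pow_eq_one hpow).exists_card_eq
  exact ⟨L, hLn, hLN, hchief, hc, q, d, hq, by rw [← card_quotImg hLN.le, hd]⟩

/-- An irreducible character is primitive if it is not induced from a proper subgroup. -/
def IsPrimitiveChar (χ : G → ℂ) : Prop :=
  ¬ ∃ (H : Subgroup G), H ≠ ⊤ ∧ ∃ θ : H → ℂ, Cfsg.IsCharacter H θ ∧ Cfsg.indFun H θ = χ

theorem restrict_eq_smul (χ : IrrCharacter G) (hprim : IsPrimitiveChar (χ : G → ℂ))
    (N : Subgroup G) [N.Normal] [Fintype N] (θ : IrrCharacter N)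
    (h : classInner (fun n : N => (χ : G → ℂ) n) (θ : N → ℂ) ≠ 0) :
    (∀ g : G, Char.conjChar N g (θ : N → ℂ) = θ) ∧
      (fun n : N => (χ : G → ℂ) n) =
        classInner (fun n : N => (χ : G → ℂ) n) (θ : N → ℂ) • (θ : N → ℂ) := by
  classical
  set T := Char.inertia N (θ : N → ℂ) with hT
  haveI := Fintype.ofFinite T
  obtain ⟨ψ, hψ, hind, -, -⟩ := CharClifford.exists_correspondent N θ.2 T rfl
    (Char.le_inertia N (Char.isClassFunction_of_isIrr θ.2)) χ.2 h
  have hT1 : T = ⊤ := by
    by_contra hne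
    exact hprim ⟨T, hne, ψ, Char.isCharacter_of_isIrr hψ, hind⟩
  have hinv : ∀ g : G, Char.conjChar N g (θ : N → ℂ) = θ := fun g =>
    (Char.mem_inertia N).1 (hT1 ▸ Subgroup.mem_top g : g ∈ T)
  refine ⟨hinv, ?_⟩
  have horb : Char.orbit N (θ : N → ℂ) = {(θ : N → ℂ)} := by
    ext φ
    rw [Char.mem_orbit, Finset.mem_singleton]
    exact ⟨fun ⟨g, hg⟩ => hg ▸ hinv g, fun hφ => ⟨1, by rw [hφ, hinv]⟩⟩
  have hc := Char.clifford N χ.2 θ.2 h
  rwa [horb, Finset.sum_singleton] at hc

/-- The step in the degree along a normal pair. -/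
theorem degree_step (χ : IrrCharacter G) (hprim : IsPrimitiveChar (χ : G → ℂ))
    {N L : Subgroup G} [N.Normal] [L.Normal] [Fintype N] [Fintype L] (hLN : L ≤ N)
    (θ : IrrCharacter N) (h : classInner (fun n : N => (χ : G → ℂ) n) (θ : N → ℂ) ≠ 0) :
    ∃ φ : IrrCharacter L, classInner (fun l : L => (χ : G → ℂ) l) (φ : L → ℂ) ≠ 0 ∧
      charDegree (θ : N → ℂ) ∣ L.relIndex N * charDegree (φ : L → ℂ) ∧
      ∃ e : ℕ, charDegree (θ : N → ℂ) = e * charDegree (φ : L → ℂ) ∧ e ^ 2 ≤ L.relIndex N := by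
  classical
  obtain ⟨φ, hφ⟩ := Block.exists_constituent_restrict L χ
  obtain ⟨-, hθres⟩ := restrict_eq_smul χ hprim N θ h
  obtain ⟨hφinv, hφres⟩ := restrict_eq_smul χ hprim L φ hφ
  refine ⟨φ, hφ, ?_⟩
  obtain ⟨L', hL'⟩ : ∃ L', L' = L.subgroupOf N := ⟨_, rfl⟩
  subst hL'
  haveI := Fintype.ofFinite (L.subgroupOf N)
  have hirr : IsIrrCharacter (L.subgroupOf N) ((φ : L → ℂ) ∘ Subgroup.subgroupOfEquivOfLe hLN) :=
    CharClifford.isIrrCharacter_comp_equiv (Subgroup.subgroupOfEquivOfLe hLN) φ.2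
  obtain ⟨φ', hφ'⟩ : ∃ φ' : IrrCharacter (L.subgroupOf N),
      (φ' : L.subgroupOf N → ℂ) = (φ : L → ℂ) ∘ Subgroup.subgroupOfEquivOfLe hLN := ⟨⟨_, hirr⟩, rfl⟩
  have hres : (fun l : L.subgroupOf N => (θ : N → ℂ) l) =
      ((classInner (fun l : L => (χ : G → ℂ) l) (φ : L → ℂ)) /
        classInner (fun n : N => (χ : G → ℂ) n) (θ : N → ℂ)) • (φ' : L.subgroupOf N → ℂ) := by
    funext l
    have h1 := congrFun hθres (l : N)
    have h2 := congrFun hφres (Subgroup.subgroupOfEquivOfLe hLN l)
    simp only [Pi.smul_apply, smul_eq_mul, hφ', Function.comp_apply,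
      Subgroup.subgroupOfEquivOfLe_apply_coe] at h1 h2 ⊢
    rw [div_mul_eq_mul_div, eq_div_iff h, mul_comm, ← h1, h2]
  have hinner : classInner (fun l : L.subgroupOf N => (θ : N → ℂ) l) (φ' : L.subgroupOf N → ℂ) =
      ((classInner (fun l : L => (χ : G → ℂ) l) (φ : L → ℂ)) /
        classInner (fun n : N => (χ : G → ℂ) n) (θ : N → ℂ)) := by
    rw [hres, Char.classInner_smul_left, Char.classInner_irr_self φ'.2, mul_one]
  obtain ⟨e, he⟩ := Char.classInner_natCast
    (Char.isCharacter_restrict (Char.isCharacter_of_isIrr θ.2) (L.subgroupOf N))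
    (Char.isCharacter_of_isIrr φ'.2)
  have he0 : classInner (fun l : L.subgroupOf N => (θ : N → ℂ) l) (φ' : L.subgroupOf N → ℂ) ≠ 0 := by
    rw [hinner]; exact div_ne_zero hφ h
  have hdeg' : charDegree (φ' : L.subgroupOf N → ℂ) = charDegree (φ : L → ℂ) := by
    refine Char.charDegree_eq_of_apply_one ?_
    rw [hφ', Function.comp_apply, map_one, Char.apply_one_eq_charDegree (Char.isCharacter_of_isIrr φ.2)]
  have hdvd := Block.NormalDefect.charDegree_dvd_index_mul (L.subgroupOf N) θ φ' he0
  rw [hdeg'] at hdvd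
  refine ⟨hdvd, e, ?_, ?_⟩
  · have h1 := congrFun hres 1
    rw [← hinner, he] at h1
    simp only [Pi.smul_apply, smul_eq_mul, OneMemClass.coe_one,
      Char.apply_one_eq_charDegree (Char.isCharacter_of_isIrr θ.2),
      Char.apply_one_eq_charDegree (Char.isCharacter_of_isIrr φ'.2), hdeg'] at h1
    exact_mod_cast h1
  · have hinv : ∀ n : N, Char.conjChar (L.subgroupOf N) n (φ' : L.subgroupOf N → ℂ) = φ' := by
      intro n
      funext l
      have h1 := congrFun (hφinv (n : G)) (Subgroup.subgroupOfEquivOfLe hLN l)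
      rw [hφ']
      exact h1
    have hself := CharClifford.classInner_indFun_self_invariant (L.subgroupOf N) φ'.2 hinv
    obtain ⟨a, ha⟩ := Char.isCharacter_eq_sum
      (Char.isCharacter_indFun (L.subgroupOf N) (Char.isCharacter_of_isIrr φ'.2))
    have ha' : ∀ β : IrrCharacter N,
        classInner (indFun (L.subgroupOf N) (φ' : L.subgroupOf N → ℂ)) β = (a β : ℂ) := by
      intro β
      rw [ha, Char.classInner_sum_left, Finset.sum_eq_single β]
      · rw [Char.classInner_smul_left, Char.classInner_irr_self β.2, mul_one]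
      · intro γ _ hγ
        rw [Char.classInner_smul_left, Char.classInner_irrCharacter, if_neg hγ, mul_zero]
      · intro hh; exact absurd (Finset.mem_univ β) hh
    have h3 : classInner (indFun (L.subgroupOf N) (φ' : L.subgroupOf N → ℂ))
        (indFun (L.subgroupOf N) (φ' : L.subgroupOf N → ℂ)) = ((∑ β, a β ^ 2 : ℕ) : ℂ) := by
      conv_lhs => rw [ha]
      rw [Char.classInner_sum_left, Nat.cast_sum]
      refine Finset.sum_congr rfl fun β _ => ?_
      rw [Char.classInner_smul_left, ← ha, Char.classInner_conj_symm, ha', Complex.conj_natCast,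
        Nat.cast_pow, sq]
    have h4 : a θ = e := by
      have h5 := ha' θ
      rw [Char.classInner_indFun _ _ (Char.isClassFunction_of_isIrr θ.2),
        Char.classInner_conj_symm, he, Complex.conj_natCast] at h5
      exact_mod_cast h5.symm
    rw [h3] at hself
    have h6 : (∑ β, a β ^ 2) = (L.subgroupOf N).index := by exact_mod_cast hself
    rw [show L.relIndex N = (L.subgroupOf N).index from rfl, ← h6, ← h4]
    exact Finset.single_le_sum (f := fun β => a β ^ 2) (fun _ _ => Nat.zero_le _) (Finset.mem_univ θ)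

/-- The averaged bound, with periods in the elements acting trivially on the chief factors. -/
theorem exists_weight {p : ℕ} [hp : Fact p.Prime] (hG : Group.IsSolvable G) (χ : IrrCharacter G)
    (hprim : IsPrimitiveChar (χ : G → ℂ)) (A : Set G)
    (hA : ∀ (N L : Subgroup G) [N.Normal] [L.Normal], L < N →
      (∀ K : Subgroup G, K.Normal → L ≤ K → K ≤ N → K = L ∨ K = N) →
      IsMulCommutative (quotImg N L) → IsPGroup p (quotImg N L) → ∀ a ∈ A, quotAct N L a = 1) :
    ∀ (n : ℕ) (N : Subgroup G), Nat.card N = n → ∀ [N.Normal] [Fintype N],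
      ∀ θ : IrrCharacter N, classInner (fun x : N => (χ : G → ℂ) x) (θ : N → ℂ) ≠ 0 →
        ∃ W : G → ℕ, (∀ g, W g ≤ classVal p N g) ∧
          (∀ g, ∀ a ∈ A, W (g * a) = W g) ∧
          Fintype.card G * (charDegree (θ : N → ℂ)).factorization p ≤ ∑ g, W g := by
  classical
  intro n
  induction n using Nat.strong_induction_on with
  | _ n ih =>
  intro N hn _ _ θ hθ
  by_cases hN : N = ⊥
  · subst hN
    refine ⟨fun _ => 0, fun _ => Nat.zero_le _, fun _ _ _ => rfl, ?_⟩
    have h1 := Char.charDegree_dvd_card θ.2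
    rw [Subgroup.card_bot, Nat.dvd_one] at h1
    simp [h1]
  obtain ⟨L, hLn, hLN, hchief, hc, q, d, hq, hd⟩ := exists_chief hG hN
  haveI := hLn
  haveI := Fintype.ofFinite L
  obtain ⟨φ, hφ, hdvd, e, he, he2⟩ := degree_step χ hprim hLN.le θ hθ
  obtain ⟨W, hW1, hW2, hW3⟩ := ih _ (hn ▸ lt_of_le_of_ne (Subgroup.card_le_of_le hLN.le) fun e => hLN.ne (Subgroup.eq_of_le_of_card_ge hLN.le e.ge)) L rfl φ hφ
  have hφ0 : charDegree (φ : L → ℂ) ≠ 0 := (Char.charDegree_pos φ.2).ne'
  have hθ0 : charDegree (θ : N → ℂ) ≠ 0 := (Char.charDegree_pos θ.2).ne'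
  rw [hd] at hdvd he2
  have hcard : Nat.card (quotImg N L) = q ^ d := (card_quotImg hLN.le).trans hd
  haveI : Fact q.Prime := ⟨hq⟩
  by_cases hcase : q = p ∧ ∃ g : G, quotAct N L g ≠ 1
  · obtain ⟨rfl, hne⟩ := hcase
    letI : CommGroup (quotImg N L) :=
      { (inferInstance : Group (quotImg N L)) with mul_comm := hc.is_comm.comm }
    have hvg : ∀ g : G, (Nat.card {v : quotImg N L // quotAct N L g v = v}).factorization q ≤ d := by
      intro g
      have h1 : Nat.card (fixSub (quotAct N L g)) ∣ q ^ d := hcard ▸ Subgroup.card_subgroup_dvd_card _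
      obtain ⟨k, hk, hk'⟩ := (Nat.dvd_prime_pow hq).1 h1
      show (Nat.card (fixSub (quotAct N L g))).factorization q ≤ d
      rw [hk', hq.factorization_pow, Finsupp.single_eq_same]
      exact hk
    refine ⟨fun g => W g + (d - (Nat.card {v : quotImg N L // quotAct N L g v = v}).factorization q),
      fun g => ?_, fun g a ha => ?_, ?_⟩
    · have h1 := classVal_step (p := q) hLN.le g
      have h2 := hW1 g
      have h3 := hvg g
      rw [hd, hq.factorization_pow, Finsupp.single_eq_same] at h1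
      dsimp only
      omega
    · show _ + _ = _ + _
      rw [hW2 g a ha, map_mul,
        hA N L hLN hchief hc (IsPGroup.of_card hcard) a ha, mul_one]
    · have hfix := two_mul_sum_fix_le hcard (quotAct N L) hG (fun U hU => by
        have hUn : (U.map (quotImg N L).subtype).Normal := ⟨fun x hx y => by
          obtain ⟨u, hu, rfl⟩ := hx
          obtain ⟨g, rfl⟩ := QuotientGroup.mk'_surjective L y
          exact ⟨quotAct N L g u, hU g u hu, by simp [quotAct, MulAut.conjNormal_apply]⟩⟩
        have h1 : (U.map (quotImg N L).subtype).comap (QuotientGroup.mk' L) ≤ N := by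
          refine (Subgroup.comap_mono (Subgroup.map_subtype_le _)).trans ?_
          rw [quotImg, Subgroup.comap_map_eq, QuotientGroup.ker_mk', sup_eq_left.2 hLN.le]
        have h2 := Subgroup.map_comap_eq_self_of_surjective (QuotientGroup.mk'_surjective L)
          (U.map (quotImg N L).subtype)
        rcases hchief _ (hUn.comap _)
          ((QuotientGroup.ker_mk' L).ge.trans (Subgroup.ker_le_comap _ _)) h1 with h | h
        · left
          rw [h, (Subgroup.map_eq_bot_iff _).2 (QuotientGroup.ker_mk' L).ge] at h2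
          exact (Subgroup.map_eq_bot_iff_of_injective _ (Subgroup.subtype_injective _)).1 h2.symm
        · right
          rw [h] at h2
          refine eq_top_iff.2 fun u _ => ?_
          have hu : (u : G ⧸ L) ∈ U.map (quotImg N L).subtype := h2 ▸ u.2
          obtain ⟨u', hu', he'⟩ := hu
          rwa [← Subtype.ext (a1 := u') (a2 := u) he']) hne
      have hsum : (∑ g : G, (d - (Nat.card {v : quotImg N L // quotAct N L g v = v}).factorization q))
          + ∑ g : G, (Nat.card {v : quotImg N L // quotAct N L g v = v}).factorization q =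
          Fintype.card G * d := by
        rw [← Finset.sum_add_distrib, Finset.sum_congr rfl fun g _ => Nat.sub_add_cancel (hvg g),
          Finset.sum_const, Finset.card_univ, smul_eq_mul]
      have he0 : e ≠ 0 := by
        rintro rfl
        exact hθ0 (by rw [he, zero_mul])
      have h2e : 2 * e.factorization q ≤ d := by
        have h1 : (q ^ e.factorization q) ^ 2 ≤ q ^ d :=
          (Nat.pow_le_pow_left (Nat.ordProj_le q he0) 2).trans he2
        rw [← pow_mul, mul_comm] at h1
        exact (Nat.pow_le_pow_iff_right hq.one_lt).1 h1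
      rw [he, Nat.factorization_mul he0 hφ0, Finsupp.add_apply, mul_add, Finset.sum_add_distrib]
      have h4 : Fintype.card G * (2 * e.factorization q) ≤ Fintype.card G * d :=
        Nat.mul_le_mul_left _ h2e
      have h6 : 2 * ∑ g : G, (Nat.card {v : quotImg N L // quotAct N L g v = v}).factorization q ≤
          Fintype.card G * d := hfix
      have h7 : Fintype.card G * (2 * e.factorization q) = 2 * (Fintype.card G * e.factorization q) := by
        ring
      omega
  · refine ⟨W, fun g => (hW1 g).trans (classVal_mono hLN.le g), hW2, le_trans ?_ hW3⟩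
    refine Nat.mul_le_mul_left _ ?_
    by_cases hqp : q = p
    · subst hqp
      have hcentral : ∀ g, quotAct N L g = 1 := fun g => by
        by_contra hg
        exact hcase ⟨rfl, g, hg⟩
      -- a central chief factor has prime order
      have hd1 : d ≤ 1 := by
        by_contra! hd2
        haveI : Fact q.Prime := ⟨hq⟩
        obtain ⟨Z, hZ⟩ := Sylow.exists_subgroup_card_pow_prime (G := quotImg N L) q (n := 1)
          (by rw [hcard, pow_one]; exact dvd_pow_self q (by omega))
        have hZn : (Z.map (quotImg N L).subtype).Normal := ⟨fun x hx y => by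
          obtain ⟨u, hu, rfl⟩ := hx
          obtain ⟨g, rfl⟩ := QuotientGroup.mk'_surjective L y
          refine ⟨u, hu, ?_⟩
          have h1 := congrArg Subtype.val (DFunLike.congr_fun (hcentral g) u)
          simpa [quotAct, MulAut.conjNormal_apply] using h1.symm⟩
        have h1 : (Z.map (quotImg N L).subtype).comap (QuotientGroup.mk' L) ≤ N := by
          refine (Subgroup.comap_mono (Subgroup.map_subtype_le _)).trans ?_
          rw [quotImg, Subgroup.comap_map_eq, QuotientGroup.ker_mk', sup_eq_left.2 hLN.le]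
        have h2 := Subgroup.map_comap_eq_self_of_surjective (QuotientGroup.mk'_surjective L)
          (Z.map (quotImg N L).subtype)
        have hZc : Nat.card (Z.map (quotImg N L).subtype) = q := by
          rw [Subgroup.card_map_of_injective (Subgroup.subtype_injective _), hZ, pow_one]
        rcases hchief _ (hZn.comap _)
          ((QuotientGroup.ker_mk' L).ge.trans (Subgroup.ker_le_comap _ _)) h1 with h | h
        · rw [h, (Subgroup.map_eq_bot_iff _).2 (QuotientGroup.ker_mk' L).ge] at h2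
          rw [← h2, Subgroup.card_bot] at hZc
          exact hq.one_lt.ne hZc
        · rw [h] at h2
          rw [← h2, show Nat.card (N.map (QuotientGroup.mk' L)) = q ^ d from hcard] at hZc
          have := (Nat.pow_eq_self_iff hq.one_lt).1 hZc
          omega
      have he1 : e = 1 := by
        have h1 : q ^ d < 2 ^ 2 ∨ 2 ^ 2 ≤ q ^ d := lt_or_ge _ _
        have h2 : e ∣ q ^ d := Nat.dvd_of_mul_dvd_mul_right (Nat.pos_of_ne_zero hφ0)
          (by rw [← he]; exact hdvd)
        obtain ⟨k, hk, rfl⟩ := (Nat.dvd_prime_pow hq).1 h2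
        rw [← pow_mul] at he2
        have := (Nat.pow_le_pow_iff_right hq.one_lt).1 he2
        rw [show k = 0 by omega, pow_zero]
      rw [he, he1, one_mul]
    · have h1 := ((Nat.factorization_le_iff_dvd hθ0
        (mul_ne_zero (pow_ne_zero _ hq.ne_zero) hφ0)).2 hdvd) p
      rw [Nat.factorization_mul (pow_ne_zero _ hq.ne_zero) hφ0, Finsupp.add_apply,
        hq.factorization_pow, Finsupp.single_eq_of_ne (Ne.symm hqp), zero_add] at h1
      exact h1

/-- The bound on the whole group. -/
theorem exists_weight_top {p : ℕ} [hp : Fact p.Prime] (hG : Group.IsSolvable G) (χ : IrrCharacter G)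
    (hprim : IsPrimitiveChar (χ : G → ℂ)) (A : Set G)
    (hA : ∀ (N L : Subgroup G) [N.Normal] [L.Normal], L < N →
      (∀ K : Subgroup G, K.Normal → L ≤ K → K ≤ N → K = L ∨ K = N) →
      IsMulCommutative (quotImg N L) → IsPGroup p (quotImg N L) → ∀ a ∈ A, quotAct N L a = 1) :
    ∃ g : G, ∀ y : G, (∃ a ∈ A, y = g * a) → (charDegree (χ : G → ℂ)).factorization p ≤
      (Subgroup.centralizer ({y} : Set G)).index.factorization p := by
  classical
  haveI := Fintype.ofFinite (⊤ : Subgroup G)
  obtain ⟨θ, hθ⟩ : ∃ θ : IrrCharacter (⊤ : Subgroup G),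
      (θ : (⊤ : Subgroup G) → ℂ) = (χ : G → ℂ) ∘ Subgroup.topEquiv :=
    ⟨⟨_, CharClifford.isIrrCharacter_comp_equiv Subgroup.topEquiv χ.2⟩, rfl⟩
  have hres : (fun x : (⊤ : Subgroup G) => (χ : G → ℂ) x) = θ := hθ.symm
  obtain ⟨W, hW1, hW2, hW3⟩ := exists_weight hG χ hprim A hA _ ⊤ rfl θ
    (by rw [hres, Char.classInner_irr_self θ.2]; exact one_ne_zero)
  have hdeg : charDegree (θ : (⊤ : Subgroup G) → ℂ) = charDegree (χ : G → ℂ) := by
    refine Char.charDegree_eq_of_apply_one ?_
    rw [hθ, Function.comp_apply, map_one, Char.apply_one_eq_charDegree (Char.isCharacter_of_isIrr χ.2)]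
  rw [hdeg] at hW3
  obtain ⟨g, -, hg⟩ : ∃ g ∈ (Finset.univ : Finset G),
      (charDegree (χ : G → ℂ)).factorization p ≤ W g := by
    refine Finset.exists_le_of_sum_le Finset.univ_nonempty ?_
    rwa [Finset.sum_const, Finset.card_univ, smul_eq_mul]
  refine ⟨g, fun y ⟨a, ha, hy⟩ => ?_⟩
  have h1 := hW1 y
  rw [hy, hW2 g a ha, classVal, Subgroup.relIndex_top_right, ← hy] at h1
  exact hg.trans h1

end Cfsg.Agent.Lib.PrimClass
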