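import Cfsg.Agent.Lib.PrimClass.Main

/-!
# Elements acting trivially on the chief factors of a metanilpotent group
-/

set_option autoImplicit false
set_option linter.unusedSectionVars false
set_option linter.style.haveILetI false

namespace Cfsg.Agent.Lib.PrimClass

open Cfsg Cfsg.Agent.Lib

universe u

variable {G : Type u} [Group G]

theorem exists_central_of_nilpotent {H : Type u} [Group H] [hH : Group.IsNilpotent H] {M : Subgroup H}
    [M.Normal] (hM : M ≠ ⊥) : M ⊓ Subgroup.center H ≠ ⊥ := by
  classical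
  obtain ⟨n, hn⟩ := hH.nilpotent
  have hex : ∃ n, M ⊓ Subgroup.upperCentralSeries H n ≠ ⊥ := ⟨n, by rw [hn, inf_top_eq]; exact hM⟩
  obtain ⟨m, hm⟩ : ∃ m, Nat.find hex = m + 1 := by
    refine ⟨Nat.find hex - 1, ?_⟩
    have : Nat.find hex ≠ 0 := fun h => by
      have h1 := Nat.find_spec hex
      rw [h, Subgroup.upperCentralSeries_zero, inf_bot_eq] at h1
      exact h1 rfl
    omega
  have h1 := Nat.find_spec hex
  rw [hm] at h1
  have h0 : M ⊓ Subgroup.upperCentralSeries H m = ⊥ := by
    by_contra h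
    exact Nat.find_min hex (by omega) h
  refine ne_bot_of_le_ne_bot h1 fun x hx => Subgroup.mem_inf.2 ⟨hx.1, ?_⟩
  rw [Subgroup.mem_center_iff]
  intro y
  have h2 : x * y * x⁻¹ * y⁻¹ ∈ M ⊓ Subgroup.upperCentralSeries H m := by
    refine ⟨?_, (Subgroup.mem_upperCentralSeries_succ_iff.1 hx.2) y⟩
    have := mul_mem hx.1 (‹M.Normal›.conj_mem x⁻¹ (inv_mem hx.1) y)
    simpa [mul_assoc] using this
  rw [h0, Subgroup.mem_bot, mul_inv_eq_one, mul_inv_eq_iff_eq_mul] at h2
  exact h2.symm

theorem quotAct_eq_one_iff {N L : Subgroup G} [N.Normal] [L.Normal] {a : G} :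
    quotAct N L a = 1 ↔ ∀ v : quotImg N L,
      QuotientGroup.mk' L a * v = v * QuotientGroup.mk' L a := by
  simp [MulEquiv.ext_iff, quotAct, Subtype.ext_iff, MulAut.conjNormal_apply, mul_inv_eq_iff_eq_mul]

/-- The Fitting subgroup centralises the chief factors. -/
theorem quotAct_fitting [Fintype G] {N L : Subgroup G} [N.Normal] [L.Normal] (hLN : L < N)
    (hchief : ∀ K : Subgroup G, K.Normal → L ≤ K → K ≤ N → K = L ∨ K = N) {a : G}
    (ha : a ∈ fittingSubgroup G) : quotAct N L a = 1 := by
  classical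
  set f := QuotientGroup.mk' L with hf
  set V := quotImg N L with hV
  set F := (fittingSubgroup G).map f with hF
  haveI : F.Normal := Subgroup.Normal.map inferInstance f (QuotientGroup.mk'_surjective L)
  haveI : Group.IsNilpotent (fittingSubgroup G) := Hall.fittingSubgroup_isNilpotent
  haveI : Group.IsNilpotent F := Group.nilpotent_of_surjective (f.subgroupMap (fittingSubgroup G))
    (f.subgroupMap_surjective (fittingSubgroup G))
  have hmin : ∀ M : Subgroup (G ⧸ L), M.Normal → M ≤ V → M = ⊥ ∨ M = V := by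
    intro M hM hMle
    have h1 : (M.comap f).map f = M :=
      Subgroup.map_comap_eq_self_of_surjective (QuotientGroup.mk'_surjective L) M
    have h2 : M.comap f ≤ N := by
      refine (Subgroup.comap_mono hMle).trans ?_
      rw [hV, quotImg, hf, Subgroup.comap_map_eq, QuotientGroup.ker_mk', sup_eq_left.2 hLN.le]
    rcases hchief _ (hM.comap _) ((QuotientGroup.ker_mk' L).ge.trans (Subgroup.ker_le_comap _ _)) h2
      with h | h
    · left
      rw [← h1, h, Subgroup.map_eq_bot_iff, QuotientGroup.ker_mk']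
    · right
      rw [← h1, h]; rfl
  rw [quotAct_eq_one_iff]
  intro v
  have hfa : f a ∈ F := ⟨a, ha, rfl⟩
  rcases hmin (V ⊓ F) inferInstance inf_le_left with h | h
  · exact (Subgroup.commute_of_normal_of_disjoint F V inferInstance inferInstance
      (disjoint_iff.2 (by rw [inf_comm]; exact h)) _ _ hfa v.2).eq
  haveI : ((Subgroup.center F).map F.subtype).Normal := ConjAct.normal_of_characteristic_of_normal
  have hVF : V ≤ F := inf_eq_left.1 h
  have hne : V.subgroupOf F ≠ ⊥ := by
    rw [Ne, Subgroup.subgroupOf_eq_bot, disjoint_iff, h, hV, quotImg, Subgroup.map_eq_bot_iff,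
      QuotientGroup.ker_mk']
    exact not_le_of_gt hLN
  obtain ⟨x, hx, hx1⟩ := (Subgroup.bot_or_exists_ne_one _).resolve_left (exists_central_of_nilpotent hne)
  have h2 : V ⊓ (Subgroup.center F).map F.subtype = V := by
    refine (hmin _ inferInstance inf_le_left).resolve_left fun hb => hx1 (Subtype.ext ?_)
    have : (x : G ⧸ L) ∈ V ⊓ (Subgroup.center F).map F.subtype :=
      ⟨hx.1, Subgroup.mem_map_of_mem _ hx.2⟩
    rwa [hb, Subgroup.mem_bot] at this
  obtain ⟨z, hz, hzv⟩ := (h2.ge v.2).2
  have := congrArg Subtype.val (Subgroup.mem_center_iff.1 hz ⟨f a, hfa⟩)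
  rw [← hzv]
  exact this.symm.symm

/-- Elements of prime power order centralise the chief factors of that prime. -/
theorem quotAct_pElement [Fintype G] [(fittingSubgroup G).Normal]
    (hmeta : Group.IsNilpotent (G ⧸ fittingSubgroup G)) {p : ℕ} [hp : Fact p.Prime]
    {N L : Subgroup G} [N.Normal] [L.Normal] (hLN : L < N)
    (hchief : ∀ K : Subgroup G, K.Normal → L ≤ K → K ≤ N → K = L ∨ K = N)
    (hc : IsMulCommutative (quotImg N L)) (hV : IsPGroup p (quotImg N L)) {a : G} {k : ℕ}
    (ha : a ^ p ^ k = 1) : quotAct N L a = 1 := by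
  classical
  letI : CommGroup (quotImg N L) :=
    { (inferInstance : Group (quotImg N L)) with mul_comm := hc.is_comm.comm }
  haveI : Finite (MulAut (quotImg N L)) := Finite.of_injective _ DFunLike.coe_injective
  set K₀ := (quotAct N L).range with hK₀
  haveI := hmeta
  haveI : Group.IsNilpotent K₀ := by
    refine Group.nilpotent_of_surjective (QuotientGroup.lift (fittingSubgroup G)
      (quotAct N L).rangeRestrict fun x hx => ?_) fun y => ?_
    · exact Subtype.ext (quotAct_fitting hLN hchief hx)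
    · obtain ⟨g, hg⟩ := (quotAct N L).rangeRestrict_surjective y
      exact ⟨g, hg⟩
  have hpz : IsPGroup p (Subgroup.zpowers ((quotAct N L).rangeRestrict a)) := by
    rintro ⟨x, i, rfl⟩
    refine ⟨k, Subtype.ext ?_⟩
    show (((quotAct N L).rangeRestrict a) ^ i) ^ p ^ k = 1
    rw [← zpow_natCast, zpow_comm, zpow_natCast, ← map_pow, ha, map_one, one_zpow]
  obtain ⟨P, hP⟩ := hpz.exists_le_sylow
  have hPn : (P : Subgroup K₀).Normal := Sylow.normal_of_normalizerCondition Group.normalizerCondition_of_isNilpotent P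
  let U : Subgroup (quotImg N L) :=
    { carrier := {v | ∀ x ∈ (P : Subgroup K₀), (x : MulAut (quotImg N L)) v = v}
      one_mem' := fun x _ => map_one _
      mul_mem' := fun {b c} hb hc x hx => by rw [map_mul, hb x hx, hc x hx]
      inv_mem' := fun {b} hb x hx => by rw [map_inv, hb x hx] }
  have hUinv : ∀ g : G, ∀ u ∈ U, quotAct N L g u ∈ U := by
    intro g u hu x hx
    have h1 := hu _ (hPn.conj_mem x hx ((quotAct N L).rangeRestrict g)⁻¹)
    calc (x : MulAut (quotImg N L)) (quotAct N L g u)
        = quotAct N L g (((((quotAct N L).rangeRestrict g)⁻¹ * x *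
            ((quotAct N L).rangeRestrict g)⁻¹⁻¹ : K₀) : MulAut (quotImg N L)) u) := by
          simp [MulAut.mul_apply]
      _ = quotAct N L g u := congrArg _ h1
  rcases Nat.eq_zero_or_pos (Nat.card (quotImg N L)) with h0 | -
  · exact absurd h0 Nat.card_pos.ne'
  have hne : U ≠ ⊥ := by
    intro h
    have hVne : quotImg N L ≠ ⊥ := fun h => by
      rw [quotImg, Subgroup.map_eq_bot_iff, QuotientGroup.ker_mk'] at h
      exact not_le_of_gt hLN h
    obtain ⟨n, hn⟩ := hV.exists_card_eq
    have hdvd : p ∣ Nat.card (quotImg N L) := by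
      rw [hn]
      refine dvd_pow_self p fun h0 => ?_
      rw [h0, pow_zero] at hn
      exact hVne (Subgroup.eq_bot_of_card_eq _ hn)
    obtain ⟨b, hb, hb1⟩ := P.2.exists_fixed_point_of_prime_dvd_card_of_fixed_point (quotImg N L)
      hdvd (a := (1 : quotImg N L)) (fun x => map_one ((x : K₀) : MulAut (quotImg N L)))
    exact hb1 (Subgroup.mem_bot.1 (h ▸ (fun x hx => hb ⟨x, hx⟩ : b ∈ U))).symm
  have htop : U = ⊤ := by
    have hUn : (U.map (quotImg N L).subtype).Normal := ⟨fun x hx y => by
      obtain ⟨u, hu, rfl⟩ := hx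
      obtain ⟨g, rfl⟩ := QuotientGroup.mk'_surjective L y
      exact ⟨quotAct N L g u, hUinv g u hu, by simp [quotAct, MulAut.conjNormal_apply]⟩⟩
    have h1 : (U.map (quotImg N L).subtype).comap (QuotientGroup.mk' L) ≤ N := by
      refine (Subgroup.comap_mono (Subgroup.map_subtype_le _)).trans ?_
      rw [quotImg, Subgroup.comap_map_eq, QuotientGroup.ker_mk', sup_eq_left.2 hLN.le]
    have h2 := Subgroup.map_comap_eq_self_of_surjective (QuotientGroup.mk'_surjective L)
      (U.map (quotImg N L).subtype)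
    rcases hchief _ (hUn.comap _) ((QuotientGroup.ker_mk' L).ge.trans (Subgroup.ker_le_comap _ _)) h1
      with h | h
    · rw [h, (Subgroup.map_eq_bot_iff _).2 (QuotientGroup.ker_mk' L).ge] at h2
      exact absurd ((Subgroup.map_eq_bot_iff_of_injective _ (Subgroup.subtype_injective _)).1 h2.symm) hne
    · rw [h] at h2
      refine eq_top_iff.2 fun u _ => ?_
      have hu : (u : G ⧸ L) ∈ U.map (quotImg N L).subtype := h2 ▸ u.2
      obtain ⟨u', hu', he'⟩ := hu
      rwa [← Subtype.ext (a1 := u') (a2 := u) he']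
  exact MulEquiv.ext fun v =>
    (htop ▸ Subgroup.mem_top v : v ∈ U) _ (hP (Subgroup.mem_zpowers _))

end Cfsg.Agent.Lib.PrimClass
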